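import Mathlib
import Cfsg.Prelude.Def_SylowChains
import Cfsg.Prelude.Def_Local
import Cfsg.Prelude.Def_Transfer
import Cfsg.Agent.Lib.Basic.PCore
import Cfsg.Agent.Lib.Basic.SylowUtil
import Cfsg.Agent.Lib.Solvable.PSeries
import Cfsg.Agent.Lib.Fusion.GroupSylow
import Cfsg.Agent.Lib.Transfer.Basic
import Cfsg.Agent.Lib.Transfer.GrunResidual
import Cfsg.Agent.S3058

/-!
# The local dichotomy in the Alperin-Goldschmidt fusion theorem

`D` is a normal `p`-subgroup of `Γ`, `S` a Sylow `p`-subgroup, and `K ≤ Γ` contains `C(D)`, `S` and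
each `h` with `D < S ∩ S^h`.  Then either `K = Γ`, or `D` is essential in the strong sense, and
`Γ = O^p(X) K` for `X/D` the smallest normal subgroup of `Γ/D` of order divisible by `p`.
-/

set_option autoImplicit false
set_option linter.unusedSectionVars false
set_option linter.unusedVariables false
set_option linter.style.haveILetI false

namespace Cfsg.Agent.Lib.PGroup.AlpGold

open Subgroup Cfsg Cfsg.Agent.Lib.Fusion.GroupSylow Cfsg.Agent.Lib.Basic.PCore
open scoped commutatorElement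
open Cfsg.Agent.Lib.Transfer.GrunResidual (pres pres_eq_map pres_le mem_pres_of)
open Cfsg.Agent.Lib.Transfer.Basic (pResidual_normal isPGroup_quotient_pResidual)
open Cfsg.Agent.Lib.Basic.SylowUtil (exists_sylow_inf_normal)

variable {Γ : Type*} [Group Γ] [Finite Γ] {p : ℕ} [hp : Fact p.Prime]

/-- The hypotheses of the dichotomy. -/
structure CoreHyp (D : Subgroup Γ) [D.Normal] (S : Sylow p Γ) (K : Subgroup Γ) : Prop where
  hDS : D < (S : Subgroup Γ)
  hC : centralizer (D : Set Γ) ≤ K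
  hS : (S : Subgroup Γ) ≤ K
  hM : ∀ h : Γ, D < (S : Subgroup Γ) ⊓ cj h (S : Subgroup Γ) → h ∈ K

variable {D : Subgroup Γ} [hD : D.Normal] {S : Sylow p Γ} {K : Subgroup Γ}

theorem CoreHyp.normalizer_le (h : CoreHyp D S K) {U : Subgroup Γ} (hDU : D < U)
    (hUS : U ≤ (S : Subgroup Γ)) : normalizer (U : Set Γ) ≤ K := by
  intro m hm
  apply h.hM m
  refine lt_of_lt_of_le hDU (le_inf hUS ?_)
  intro u hu
  rw [mem_cj]
  have h1 : m⁻¹ * u * m⁻¹⁻¹ ∈ U := (mem_normalizer_iff.mp (inv_mem hm) u).mp hu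
  rw [inv_inv] at h1
  exact hUS h1

/-- The Frattini argument. -/
theorem CoreHyp.eq_top_of_normal (h : CoreHyp D S K) (W : Subgroup Γ) [hW : W.Normal]
    (hWK : W ≤ K) (hlt : D < (S : Subgroup Γ) ⊓ W) : K = ⊤ := by
  obtain ⟨Q, hQ⟩ := exists_sylow_inf_normal S W
  have h1 := Sylow.normalizer_sup_eq_top Q
  rw [eq_top_iff, ← h1]
  refine sup_le ?_ hWK
  have h2 : ((Q : Subgroup W).map W.subtype) = (S : Subgroup Γ) ⊓ W := hQ
  have h3 : normalizer (((Q : Subgroup W).map W.subtype : Subgroup Γ) : Set Γ) ≤ K := by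
    rw [h2]
    exact h.normalizer_le hlt inf_le_left
  exact h3

theorem CoreHyp.le_S (h : CoreHyp D S K) : D ≤ (S : Subgroup Γ) := h.hDS.le

theorem CoreHyp.isP (h : CoreHyp D S K) : IsPGroup p D := S.isPGroup'.to_le h.le_S

/-- `O_{p'}` centralizes a normal `p`-subgroup. -/
theorem pPrimeCore_le_centralizer (hDp : IsPGroup p D) :
    pPrimeCore p Γ ≤ centralizer (D : Set Γ) := by
  intro x hx
  rw [mem_centralizer_iff]
  intro d hd
  have hc1 : (Nat.card (pPrimeCore p Γ)).Coprime p :=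
    Cfsg.Agent.Lib.Solvable.PSeries.pPrimeCore_coprime p
  have hinf : pPrimeCore p Γ ⊓ D = ⊥ := by
    obtain ⟨k, hk⟩ := IsPGroup.iff_card.mp hDp
    apply disjoint_iff.mp
    apply Subgroup.disjoint_of_coprime_natCard
    rw [hk]
    exact Nat.Coprime.pow_right k hc1
  have hcomm : ⁅x, d⁆ ∈ pPrimeCore p Γ ⊓ D := by
    refine mem_inf.mpr ⟨?_, ?_⟩
    · have h1 : d * x⁻¹ * d⁻¹ ∈ pPrimeCore p Γ := (pPrimeCore_normal p Γ).conj_mem _ (inv_mem hx) d
      rw [commutatorElement_def]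
      have h2 : x * d * x⁻¹ * d⁻¹ = x * (d * x⁻¹ * d⁻¹) := by group
      rw [h2]
      exact mul_mem hx h1
    · have h1 : x * d * x⁻¹ ∈ D := hD.conj_mem _ hd x
      rw [commutatorElement_def]
      exact mul_mem h1 (inv_mem hd)
  rw [hinf, mem_bot, commutatorElement_eq_one_iff_mul_comm] at hcomm
  exact hcomm.symm

theorem pPrimeCore_le_pPrimePCore' : pPrimeCore p Γ ≤ pPrimePCore p Γ := by
  intro x hx
  rw [pPrimePCore, mem_comap]
  have : QuotientGroup.mk' (pPrimeCore p Γ) x = 1 := (QuotientGroup.eq_one_iff x).mpr hx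
  rw [this]
  exact one_mem _

theorem le_pPrimePCore_of_normal (hDp : IsPGroup p D) : D ≤ pPrimePCore p Γ := by
  intro d hd
  rw [pPrimePCore, mem_comap]
  have h1 : (D.map (QuotientGroup.mk' (pPrimeCore p Γ))).Normal :=
    hD.map _ (QuotientGroup.mk'_surjective _)
  exact le_pCore h1 (hDp.map _) (mem_map_of_mem _ hd)

/-- `O_{p',p}(Γ) = O_{p'}(Γ) (S ∩ O_{p',p}(Γ))`. -/
theorem pPrimePCore_le (S : Sylow p Γ) :
    pPrimePCore p Γ ≤ pPrimeCore p Γ ⊔ ((S : Subgroup Γ) ⊓ pPrimePCore p Γ) := by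
  intro y hy
  have hsurj : Function.Surjective (QuotientGroup.mk' (pPrimeCore p Γ)) :=
    QuotientGroup.mk'_surjective _
  have h1 : QuotientGroup.mk' (pPrimeCore p Γ) y ∈ pCore p (Γ ⧸ pPrimeCore p Γ) := hy
  have h2 := pCore_le_sylow (S.mapSurjective hsurj) h1
  rw [Sylow.coe_mapSurjective] at h2
  obtain ⟨s, hs, hsy⟩ := h2
  have hl : s⁻¹ * y ∈ pPrimeCore p Γ := by
    have : QuotientGroup.mk' (pPrimeCore p Γ) (s⁻¹ * y) = 1 := by
      rw [map_mul, map_inv, hsy]; simp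
    exact (QuotientGroup.eq_one_iff _).mp this
  have hsY : s ∈ pPrimePCore p Γ := by
    have : s = y * (s⁻¹ * y)⁻¹ := by group
    rw [this]
    exact mul_mem hy (inv_mem (pPrimeCore_le_pPrimePCore' hl))
  have : y = s * (s⁻¹ * y) := by group
  rw [this]
  exact mul_mem (mem_sup_right (mem_inf.mpr ⟨hs, hsY⟩)) (mem_sup_left hl)

/-- Burnside: if `C_S(D) ≤ D` then `C(D) ≤ O_{p',p}`. -/
theorem centralizer_le_pPrimePCore (hDS : D ≤ (S : Subgroup Γ))
    (hc : (S : Subgroup Γ) ⊓ centralizer (D : Set Γ) ≤ D) :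
    centralizer (D : Set Γ) ≤ pPrimePCore p Γ := by
  set C : Subgroup Γ := centralizer (D : Set Γ) with hC
  haveI hCn : C.Normal := inferInstance
  obtain ⟨Q, hQ⟩ := exists_sylow_inf_normal S C
  have hQcen : ∀ q ∈ (Q : Subgroup C), ∀ c : C, q * c = c * q := by
    intro q hq c
    have h1 : (q : Γ) ∈ (S : Subgroup Γ) ⊓ C := by
      rw [← hQ]
      exact mem_map_of_mem _ hq
    have h2 : (q : Γ) ∈ D := hc h1
    apply Subtype.ext
    have := (mem_centralizer_iff.mp c.2) _ h2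
    simpa using this
  have hNC : normalizer ((Q : Subgroup C) : Set C) ≤ centralizer ((Q : Subgroup C) : Set C) := by
    intro x _
    rw [mem_centralizer_iff]
    intro q hq
    exact hQcen q hq x
  set f := MonoidHom.transferSylow Q hNC with hf
  have hcompl := MonoidHom.ker_transferSylow_isComplement' Q hNC
  have hnd := MonoidHom.not_dvd_card_ker_transferSylow Q hNC
  -- the complement consists of the `p'`-elements of `C`
  have hmemker : ∀ c : C, Nat.Coprime (orderOf c) p → c ∈ f.ker := by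
    intro c hc'
    rw [MonoidHom.mem_ker]
    have h1 : orderOf (f c) ∣ orderOf c := orderOf_map_dvd f c
    obtain ⟨k, hk⟩ := (IsPGroup.iff_orderOf.mp Q.isPGroup') (f c)
    rw [hk] at h1
    rcases k with _ | k
    · rw [pow_zero] at hk
      exact orderOf_eq_one_iff.mp hk
    · exfalso
      have h2 : p ∣ orderOf c := (dvd_pow_self p (Nat.succ_ne_zero k)).trans h1
      have := Nat.Coprime.eq_one_of_dvd (hc'.symm) h2
      exact hp.out.one_lt.ne' this
  have hkercop : ∀ c ∈ f.ker, Nat.Coprime (orderOf c) p := by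
    intro c hc'
    have h1 : orderOf c ∣ Nat.card f.ker := by
      have := orderOf_dvd_natCard (⟨c, hc'⟩ : f.ker)
      rwa [Subgroup.orderOf_mk] at this
    exact Nat.Coprime.symm ((hp.out.coprime_iff_not_dvd).mpr (fun h => hnd (h.trans h1)))
  set L₁ : Subgroup Γ := f.ker.map C.subtype with hL₁
  have hL₁n : L₁.Normal := by
    constructor
    rintro _ ⟨l, hl, rfl⟩ g
    have hc0 : g * (l : Γ) * g⁻¹ ∈ C := hCn.conj_mem _ l.2 g
    refine ⟨⟨_, hc0⟩, hmemker _ ?_, rfl⟩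
    have h1 : orderOf (⟨_, hc0⟩ : C) = orderOf (l : C) := by
      rw [Subgroup.orderOf_mk, ← Subgroup.orderOf_coe l]
      exact Cfsg.Agent.Lib.Transfer.Basic.orderOf_conj_eq _ _
    rw [h1]
    exact hkercop l hl
  have hL₁c : (Nat.card L₁).Coprime p := by
    rw [hL₁, Subgroup.card_map_of_injective C.subtype_injective]
    exact Nat.Coprime.symm ((hp.out.coprime_iff_not_dvd).mpr hnd)
  have hL₁le : L₁ ≤ pPrimeCore p Γ := le_pPrimeCore hL₁n hL₁c
  have hDp : IsPGroup p D := S.isPGroup'.to_le hDS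
  intro c hcC
  obtain ⟨⟨l, q⟩, hlq⟩ := hcompl.2 (⟨c, hcC⟩ : C)
  have h3 : c = (l : C) * (q : C) := by
    have := congrArg Subtype.val hlq
    simpa using this.symm
  rw [h3]
  refine mul_mem ?_ ?_
  · exact pPrimeCore_le_pPrimePCore' (hL₁le (mem_map_of_mem _ l.2))
  · have h1 : ((q : C) : Γ) ∈ (S : Subgroup Γ) ⊓ C := by
      rw [← hQ]
      exact mem_map_of_mem _ q.2
    exact le_pPrimePCore_of_normal hDp (hc h1)

/-- First alternative: `C_S(D) ≤ D`. -/
theorem CoreHyp.inf_centralizer_le (h : CoreHyp D S K) (hK : K ≠ ⊤) :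
    (S : Subgroup Γ) ⊓ centralizer (D : Set Γ) ≤ D := by
  by_contra hc
  apply hK
  obtain ⟨x, hx, hxD⟩ := SetLike.not_le_iff_exists.mp hc
  apply h.eq_top_of_normal (D ⊔ centralizer (D : Set Γ))
  · exact sup_le (h.le_S.trans h.hS) h.hC
  · refine SetLike.lt_iff_le_and_exists.mpr ⟨le_inf h.le_S le_sup_left, x, ?_, hxD⟩
    exact mem_inf.mpr ⟨(mem_inf.mp hx).1, mem_sup_right (mem_inf.mp hx).2⟩

/-- Second alternative: `O_{p',p} = D C(D)`. -/
theorem CoreHyp.core_eq (h : CoreHyp D S K) (hK : K ≠ ⊤) :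
    pPrimePCore p Γ = D ⊔ centralizer (D : Set Γ) := by
  have hc := h.inf_centralizer_le hK
  have hYD := le_pPrimePCore_of_normal (p := p) (D := D) h.isP
  have hYC := centralizer_le_pPrimePCore h.le_S hc
  have hle : D ⊔ centralizer (D : Set Γ) ≤ pPrimePCore p Γ := sup_le hYD hYC
  have hO := pPrimeCore_le_centralizer (p := p) (D := D) h.isP
  have hY := pPrimePCore_le (p := p) (Γ := Γ) S
  by_cases hT : (S : Subgroup Γ) ⊓ pPrimePCore p Γ = D
  · apply le_antisymm _ hle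
    rw [hT] at hY
    exact hY.trans (sup_le (hO.trans le_sup_right) le_sup_left)
  · exfalso
    apply hK
    haveI hYn : (pPrimePCore p Γ).Normal := by
      unfold pPrimePCore
      infer_instance
    apply h.eq_top_of_normal (pPrimePCore p Γ)
    · exact hY.trans (sup_le (hO.trans h.hC) (inf_le_left.trans h.hS))
    · exact lt_of_le_of_ne (le_inf h.le_S hYD) (Ne.symm hT)

section Conn

theorem mem_smul_sylow {Q : Type*} [Group Q] [Finite Q] (g x : Q) (T : Sylow p Q) :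
    x ∈ ((g • T : Sylow p Q) : Subgroup Q) ↔ g⁻¹ * x * g ∈ (T : Subgroup Q) := by
  rw [Sylow.coe_subgroup_smul, Subgroup.mem_pointwise_smul_iff_inv_smul_mem]
  simp [MulAut.smul_def]

theorem mk_surj : Function.Surjective (QuotientGroup.mk' D) := QuotientGroup.mk'_surjective D

theorem CoreHyp.mem_of_mk_mem (h : CoreHyp D S K) {z : Γ}
    (hz : QuotientGroup.mk' D z ∈ ((S.mapSurjective (mk_surj (D := D)) : Sylow p (Γ ⧸ D)) : Subgroup (Γ ⧸ D))) :
    z ∈ (S : Subgroup Γ) := by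
  rw [Sylow.coe_mapSurjective] at hz
  obtain ⟨s, hs, hsz⟩ := hz
  have h1 : s⁻¹ * z ∈ D := by
    have : QuotientGroup.mk' D (s⁻¹ * z) = 1 := by
      rw [map_mul, map_inv, hsz]; simp
    exact (QuotientGroup.eq_one_iff _).mp this
  have h2 : z = s * (s⁻¹ * z) := by group
  rw [h2]
  exact mul_mem hs (h.le_S h1)

theorem CoreHyp.mem_of_inter (h : CoreHyp D S K) (k : Γ)
    (hne : ((S.mapSurjective (mk_surj (D := D)) : Sylow p (Γ ⧸ D)) : Subgroup (Γ ⧸ D)) ⊓
      ((QuotientGroup.mk' D k • (S.mapSurjective (mk_surj (D := D)) : Sylow p (Γ ⧸ D)) : Sylow p (Γ ⧸ D)) : Subgroup (Γ ⧸ D)) ≠ ⊥) :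
    k ∈ K := by
  obtain ⟨u, hu, hu1⟩ := (Subgroup.bot_or_exists_ne_one _).resolve_left hne
  obtain ⟨hu2, hu3⟩ := mem_inf.mp hu
  have hu4 := hu2
  rw [Sylow.coe_mapSurjective] at hu4
  obtain ⟨t, ht, rfl⟩ := hu4
  rw [mem_smul_sylow] at hu3
  have ht2 : k⁻¹ * t * k ∈ (S : Subgroup Γ) := by
    apply h.mem_of_mk_mem
    simpa using hu3
  apply h.hM k
  refine SetLike.lt_iff_le_and_exists.mpr ⟨le_inf h.le_S ?_, t, ?_, ?_⟩
  · intro d hd
    rw [mem_cj]
    apply h.le_S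
    have := hD.conj_mem d hd k⁻¹
    simpa using this
  · exact mem_inf.mpr ⟨ht, mem_cj.mpr ht2⟩
  · intro htD
    exact hu1 ((QuotientGroup.eq_one_iff t).mpr htD)

/-- A chain-connected quotient forces `K = Γ`. -/
theorem CoreHyp.eq_top_of_connected (h : CoreHyp D S K) (hc : IsSylowChainConnected p (Γ ⧸ D)) :
    K = ⊤ := by
  rw [eq_top_iff]
  intro x _
  set Sb : Sylow p (Γ ⧸ D) := S.mapSurjective (mk_surj (D := D)) with hSb
  obtain ⟨n, c, h0, hl, -, hstep⟩ := hc Sb (QuotientGroup.mk' D x • Sb)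
  have key : ∀ i : Fin (n + 1), ∃ u ∈ K, QuotientGroup.mk' D u • Sb = c i := by
    intro i
    induction i using Fin.induction with
    | zero => exact ⟨1, one_mem _, by simp [h0]⟩
    | succ i ih =>
      obtain ⟨u, hu, hue⟩ := ih
      obtain ⟨hne, hint⟩ := hstep i
      obtain ⟨q, hq⟩ := MulAction.exists_smul_eq (Γ ⧸ D) Sb (c i.succ)
      obtain ⟨g, rfl⟩ := (mk_surj (D := D)) q
      refine ⟨u * (u⁻¹ * g), mul_mem hu (h.mem_of_inter _ ?_), by simpa using hq⟩
      intro hbot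
      apply hint
      rw [eq_bot_iff]
      intro y hy
      obtain ⟨hy1, hy2⟩ := mem_inf.mp hy
      rw [← hue, mem_smul_sylow] at hy1
      rw [← hq, mem_smul_sylow] at hy2
      have hy3 : (QuotientGroup.mk' D u)⁻¹ * y * QuotientGroup.mk' D u ∈
          (Sb : Subgroup (Γ ⧸ D)) ⊓ ((QuotientGroup.mk' D (u⁻¹ * g) • Sb : Sylow p (Γ ⧸ D)) : Subgroup (Γ ⧸ D)) := by
        refine mem_inf.mpr ⟨hy1, ?_⟩
        rw [mem_smul_sylow]
        have : (QuotientGroup.mk' D (u⁻¹ * g))⁻¹ * ((QuotientGroup.mk' D u)⁻¹ * y * QuotientGroup.mk' D u) *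
            QuotientGroup.mk' D (u⁻¹ * g) = (QuotientGroup.mk' D g)⁻¹ * y * QuotientGroup.mk' D g := by
          simp only [map_mul, map_inv]
          group
        rw [this]
        exact hy2
      rw [hbot, mem_bot] at hy3
      rw [mem_bot]
      have : y = QuotientGroup.mk' D u * ((QuotientGroup.mk' D u)⁻¹ * y * QuotientGroup.mk' D u) *
          (QuotientGroup.mk' D u)⁻¹ := by group
      rw [this, hy3]
      group
  obtain ⟨u, hu, hue⟩ := key (Fin.last n)
  rw [hl] at hue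
  have hw : (u⁻¹ * x) ∈ K := by
    apply h.hM
    refine lt_of_lt_of_le h.hDS (le_inf le_rfl ?_)
    intro s hs
    rw [mem_cj]
    apply h.mem_of_mk_mem
    have h1 : QuotientGroup.mk' D s ∈ (Sb : Subgroup (Γ ⧸ D)) := by
      rw [hSb, Sylow.coe_mapSurjective]
      exact mem_map_of_mem _ hs
    have h2 : QuotientGroup.mk' D s ∈ ((QuotientGroup.mk' D (u⁻¹ * x) • Sb : Sylow p (Γ ⧸ D)) : Subgroup (Γ ⧸ D)) := by
      have : QuotientGroup.mk' D (u⁻¹ * x) • Sb = Sb := by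
        rw [map_mul, map_inv, mul_smul, ← hue, ← mul_smul]
        simp
      rw [this]
      exact h1
    rw [mem_smul_sylow] at h2
    have h3 : (QuotientGroup.mk' D) ((u⁻¹ * x)⁻¹ * s * (u⁻¹ * x)) =
        ((QuotientGroup.mk' D) (u⁻¹ * x))⁻¹ * (QuotientGroup.mk' D) s * (QuotientGroup.mk' D) (u⁻¹ * x) := by
      simp only [map_mul, map_inv]
    rw [h3]
    exact h2
  have : x = u * (u⁻¹ * x) := by group
  rw [this]
  exact mul_mem hu hw

end Conn

theorem card_map_mk {X : Subgroup Γ} (hX : D ≤ X) :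
    Nat.card (X.map (QuotientGroup.mk' D)) = D.relIndex X := by
  have h1 : ((QuotientGroup.mk' D).comp X.subtype).ker = D.subgroupOf X := by
    ext x
    simp [MonoidHom.mem_ker, mem_subgroupOf, QuotientGroup.eq_one_iff]
  have h2 : ((QuotientGroup.mk' D).comp X.subtype).range = X.map (QuotientGroup.mk' D) := by
    ext x
    constructor
    · rintro ⟨y, rfl⟩
      exact ⟨y, y.2, rfl⟩
    · rintro ⟨y, hy, rfl⟩
      exact ⟨⟨y, hy⟩, rfl⟩
  have h3 := Subgroup.index_ker ((QuotientGroup.mk' D).comp X.subtype)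
  rw [h1, h2] at h3
  rw [← h3]
  rfl

theorem CoreHyp.dvd_index (h : CoreHyp D S K) : p ∣ D.index := by
  have h1 : D.relIndex (S : Subgroup Γ) ≠ 1 := by
    intro h1
    exact h.hDS.not_ge (Subgroup.relIndex_eq_one.mp h1)
  have h2 : D.relIndex (S : Subgroup Γ) ∣ Nat.card (S : Subgroup Γ) := Subgroup.relIndex_dvd_card _ _
  obtain ⟨k, hk⟩ := IsPGroup.iff_card.mp S.isPGroup'
  rw [hk] at h2
  obtain ⟨j, -, hj⟩ := (Nat.dvd_prime_pow hp.out).mp h2
  have h3 : p ∣ D.relIndex (S : Subgroup Γ) := by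
    rw [hj]
    rcases j with _ | j
    · simp [hj] at h1
    · exact dvd_pow_self p (Nat.succ_ne_zero j)
  rw [← Subgroup.relIndex_mul_index h.le_S]
  exact h3.trans (dvd_mul_right _ _)

/-- The smallest normal subgroup of `Γ/D` of order divisible by `p`. -/
theorem CoreHyp.exists_min (h : CoreHyp D S K) (hc : ¬ IsSylowChainConnected p (Γ ⧸ D)) :
    ∃ X : Subgroup Γ, D ≤ X ∧ X.Normal ∧ p ∣ D.relIndex X ∧
      ∀ Y : Subgroup Γ, D ≤ Y → Y.Normal → p ∣ D.relIndex Y → X ≤ Y := by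
  have hfin : Set.Finite {X : Subgroup Γ | D ≤ X ∧ X.Normal ∧ p ∣ D.relIndex X} := Set.toFinite _
  obtain ⟨X, ⟨hX1, hX2, hX3⟩, hXmin⟩ := Set.exists_min_image _ (fun X : Subgroup Γ => Nat.card X) hfin
    ⟨⊤, le_top, inferInstance, by rw [Subgroup.relIndex_top_right]; exact h.dvd_index⟩
  refine ⟨X, hX1, hX2, hX3, ?_⟩
  intro Y hY1 hY2 hY3
  have hinf : D ≤ X ⊓ Y := le_inf hX1 hY1
  have hdvd : p ∣ D.relIndex (X ⊓ Y) := by
    haveI : (X.map (QuotientGroup.mk' D)).Normal := hX2.map _ (mk_surj (D := D))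
    haveI : (Y.map (QuotientGroup.mk' D)).Normal := hY2.map _ (mk_surj (D := D))
    have h1 := Cfsg.Agent.S3058.result (G := Γ ⧸ D) p hc (X.map (QuotientGroup.mk' D)) (Y.map (QuotientGroup.mk' D))
      (by rw [card_map_mk hX1]; exact hX3) (by rw [card_map_mk hY1]; exact hY3)
    have h2 : X.map (QuotientGroup.mk' D) ⊓ Y.map (QuotientGroup.mk' D) = (X ⊓ Y).map (QuotientGroup.mk' D) := by
      ext z
      constructor
      · rintro ⟨⟨x, hx, rfl⟩, ⟨y, hy, hxy⟩⟩
        refine ⟨x, mem_inf.mpr ⟨hx, ?_⟩, rfl⟩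
        have h3 : y⁻¹ * x ∈ D := by
          have : QuotientGroup.mk' D (y⁻¹ * x) = 1 := by
            rw [map_mul, map_inv]
            rw [show (QuotientGroup.mk' D) y = (QuotientGroup.mk' D) x from hxy]
            simp
          exact (QuotientGroup.eq_one_iff _).mp this
        have h4 : x = y * (y⁻¹ * x) := by group
        rw [h4]
        exact mul_mem hy (hY1 h3)
      · rintro ⟨x, hx, rfl⟩
        exact mem_inf.mpr ⟨mem_map_of_mem _ (mem_inf.mp hx).1, mem_map_of_mem _ (mem_inf.mp hx).2⟩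
    rw [h2, card_map_mk hinf] at h1
    exact h1
  have h5 := hXmin (X ⊓ Y) ⟨hinf, inferInstance, hdvd⟩
  have h6 : X ⊓ Y = X := Subgroup.eq_of_le_of_card_ge inf_le_left h5
  exact inf_eq_left.mp h6

theorem sylow_sup_pResidual {A : Type*} [Group A] [Finite A] (T : Sylow p A) :
    (T : Subgroup A) ⊔ pResidual p A = ⊤ := by
  haveI := pResidual_normal p A
  have hq : IsPGroup p (A ⧸ pResidual p A) := isPGroup_quotient_pResidual
  have h1 : ((T : Subgroup A) ⊔ pResidual p A).index ∣ (T : Subgroup A).index :=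
    Subgroup.index_dvd_of_le le_sup_left
  have h2 : ((T : Subgroup A) ⊔ pResidual p A).index ∣ (pResidual p A).index :=
    Subgroup.index_dvd_of_le le_sup_right
  obtain ⟨k, hk⟩ := IsPGroup.iff_card.mp hq
  have h3 : (pResidual p A).index = p ^ k := by rw [Subgroup.index]; exact hk
  rw [h3] at h2
  obtain ⟨j, -, hj⟩ := (Nat.dvd_prime_pow (Fact.out : p.Prime)).mp h2
  rw [← Subgroup.index_eq_one, hj]
  rcases j with _ | j
  · simp
  · exfalso
    apply T.not_dvd_index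
    rw [hj] at h1
    exact (dvd_pow_self p (Nat.succ_ne_zero j)).trans h1

theorem pres_normal (X : Subgroup Γ) [hX : X.Normal] : (pres p X).Normal := by
  apply Cfsg.Agent.Lib.Transfer.Basic.closure_normal_of_conj_invariant
  intro x hx g
  refine ⟨hX.conj_mem _ hx.1 g, ?_⟩
  show Nat.Coprime _ _
  rw [Cfsg.Agent.Lib.Transfer.Basic.orderOf_conj_eq]
  exact hx.2

/-- The factorization `Γ = O^p(X) K`. -/
theorem CoreHyp.factor (h : CoreHyp D S K) {X : Subgroup Γ} (hDX : D ≤ X) [hX : X.Normal]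
    (hdvd : p ∣ D.relIndex X) (g : Γ) : ∃ v ∈ pres p X, ∃ k ∈ K, g = v * k := by
  obtain ⟨Q, hQ⟩ := exists_sylow_inf_normal S X
  have hQ' : (Q : Subgroup X).map X.subtype = (S : Subgroup Γ) ⊓ X := hQ
  have hDU : D < (S : Subgroup Γ) ⊓ X := by
    refine lt_of_le_of_ne (le_inf h.le_S hDX) ?_
    intro heq
    apply Q.not_dvd_index
    have h1 : (Q : Subgroup X) = D.subgroupOf X := by
      ext x
      rw [mem_subgroupOf, heq, ← hQ']
      simp
    rw [h1]
    exact hdvd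
  haveI hVn : (pres p X).Normal := pres_normal X
  have hN : normalizer (((S : Subgroup Γ) ⊓ X : Subgroup Γ) : Set Γ) ≤ K :=
    h.normalizer_le hDU inf_le_left
  have hXle : X ≤ pres p X ⊔ K := by
    have h1 := sylow_sup_pResidual Q
    have h2 := congrArg (Subgroup.map X.subtype) h1
    rw [Subgroup.map_sup, hQ', ← pres_eq_map] at h2
    have h3 : (⊤ : Subgroup X).map X.subtype = X := by
      ext x
      simp
    rw [h3] at h2
    exact h2.ge.trans (sup_le ((inf_le_left.trans h.hS).trans le_sup_right) le_sup_left)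
  have hg : g ∈ pres p X ⊔ K := by
    have h1 : normalizer (((Q : Subgroup X).map X.subtype : Subgroup Γ) : Set Γ) ⊔ X = ⊤ :=
      Sylow.normalizer_sup_eq_top Q
    rw [hQ'] at h1
    have h3 : g ∈ normalizer (((S : Subgroup Γ) ⊓ X : Subgroup Γ) : Set Γ) ⊔ X := by
      rw [h1]; trivial
    exact (sup_le (hN.trans le_sup_right) hXle) h3
  have h4 := Subgroup.normal_mul (pres p X) K
  have h5 : g ∈ ((pres p X ⊔ K : Subgroup Γ) : Set Γ) := hg
  rw [h4] at h5
  obtain ⟨v, hv, k, hk, hvk⟩ := Set.mem_mul.mp h5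
  exact ⟨v, hv, k, hk, hvk.symm⟩

/-- The dichotomy. -/
theorem CoreHyp.dichotomy (h : CoreHyp D S K) :
    K = ⊤ ∨ ((S : Subgroup Γ) ⊓ centralizer (D : Set Γ) ≤ D ∧
      pPrimePCore p Γ = D ⊔ centralizer (D : Set Γ) ∧
      ¬ IsSylowChainConnected p (Γ ⧸ D) ∧
      ∃ X : Subgroup Γ, D ≤ X ∧ X.Normal ∧ p ∣ D.relIndex X ∧
        (∀ Y : Subgroup Γ, D ≤ Y → Y.Normal → p ∣ D.relIndex Y → X ≤ Y) ∧
        ∀ g : Γ, ∃ v ∈ pres p X, ∃ k ∈ K, g = v * k) := by
  by_cases hK : K = ⊤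
  · exact Or.inl hK
  refine Or.inr ⟨h.inf_centralizer_le hK, h.core_eq hK, ?_, ?_⟩
  · intro hc
    exact hK (h.eq_top_of_connected hc)
  · have hc : ¬ IsSylowChainConnected p (Γ ⧸ D) := fun hc => hK (h.eq_top_of_connected hc)
    obtain ⟨X, h1, h2, h3, h4⟩ := h.exists_min hc
    haveI := h2
    exact ⟨X, h1, h2, h3, h4, h.factor h1 h3⟩

end Cfsg.Agent.Lib.PGroup.AlpGold
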