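import Mathlib
import Cfsg.Agent.Lib.PGroup.AlpGold.Core
import Cfsg.Agent.Lib.PGroup.AlperinChain
import Cfsg.Agent.Lib.Components.Transport

/-!
# Factorizations through essential normalizers

`EStep p P H X x` lists the properties of one factor in the strong form of the
Alperin-Goldschmidt fusion theorem, and `GoodG p P A g` says that `g` has a factorization
`g = c x₁ ⋯ xₙ y`.
-/

set_option autoImplicit false
set_option linter.unusedSectionVars false
set_option linter.unusedVariables false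
set_option linter.style.haveILetI false

namespace Cfsg.Agent.Lib.PGroup.AlpGold

open Subgroup Cfsg Cfsg.Agent.Lib.Fusion.GroupSylow Cfsg.Agent.Lib.Basic.PCore
open Cfsg.Agent.Lib.Transfer.GrunResidual (pres pres_eq_map pres_le mem_pres_of)
open Cfsg.Agent.Lib.PGroup.AlperinChain (cjs cjs_one cjs_mul)
open Cfsg.Agent.Lib.Components.Transport (pPrimeCore_map_equiv pCore_map_equiv quotientCoreEquiv
  map_symm_map_equiv)

section Transport

variable {A B : Type*} [Group A] [Group B]

theorem pPrimePCore_map_le (p : ℕ) (e : A ≃* B) :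
    (pPrimePCore p A).map e.toMonoidHom ≤ pPrimePCore p B := by
  rintro _ ⟨x, hx, rfl⟩
  have hx' : QuotientGroup.mk' (pPrimeCore p A) x ∈ pCore p (A ⧸ pPrimeCore p A) := hx
  have h1 : (pCore p (A ⧸ pPrimeCore p A)).map (quotientCoreEquiv p e).toMonoidHom ≤
      pCore p (B ⧸ pPrimeCore p B) := (pCore_map_equiv p (quotientCoreEquiv p e)).le
  exact h1 (mem_map_of_mem _ hx')

theorem pPrimePCore_map_equiv (p : ℕ) (e : A ≃* B) :
    (pPrimePCore p A).map e.toMonoidHom = pPrimePCore p B := by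
  refine le_antisymm (pPrimePCore_map_le p e) ?_
  rw [← map_symm_map_equiv e (pPrimePCore p B)]
  exact Subgroup.map_mono (pPrimePCore_map_le p e.symm)

theorem sylowChainConnected_of_equiv {p : ℕ} [Fact p.Prime] [Finite A] (e : A ≃* B)
    (h : IsSylowChainConnected p A) : IsSylowChainConnected p B := by
  set f : A →* B := e.toMonoidHom with hf
  have hsurj : Function.Surjective f := e.surjective
  have hinj : Function.Injective f := e.injective
  have hc : ∀ T : Sylow p A, ((T.mapSurjective hsurj : Sylow p B) : Subgroup B) = (T : Subgroup A).map f :=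
    fun T => rfl
  have hA : ∀ T : Sylow p B, ∃ T₀ : Sylow p A, T₀.mapSurjective hsurj = T := by
    intro T
    exact Sylow.mapSurjective_surjective hsurj p T
  intro S T
  obtain ⟨S₀, hS₀⟩ := hA S
  obtain ⟨T₀, hT₀⟩ := hA T
  obtain ⟨n, c, h0, hl, hsub, hstep⟩ := h S₀ T₀
  refine ⟨n, fun i => (c i).mapSurjective hsurj, ?_, ?_, ?_, ?_⟩
  · simp only [h0]
    exact hS₀
  · simp only [hl]
    exact hT₀
  · intro i
    rw [← hS₀, ← hT₀, hc, hc, hc, ← Subgroup.map_inf _ _ _ hinj]
    exact Subgroup.map_mono (hsub i)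
  · intro i
    obtain ⟨h1, h2⟩ := hstep i
    refine ⟨?_, ?_⟩
    · intro h3
      apply h1
      apply Sylow.ext
      have h4 := congrArg (fun U : Sylow p B => (U : Subgroup B)) h3
      simp only [hc] at h4
      exact Subgroup.map_injective hinj h4
    · simp only [hc]
      rw [← Subgroup.map_inf _ _ _ hinj]
      intro h3
      apply h2
      exact (Subgroup.map_eq_bot_iff_of_injective _ hinj).mp h3

end Transport

variable {G : Type*} [Group G] [Finite G] {p : ℕ} [hp : Fact p.Prime]

/-- One factor of the strong form of the fusion theorem. -/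
structure EStep (p : ℕ) (P H X : Subgroup G) (x : G) : Prop where
  hHP : H ≤ P
  hfn : ¬ p ∣ (P ⊓ normalizer (H : Set G)).relIndex (normalizer (H : Set G))
  hcent : P ⊓ centralizer (H : Set G) ≤ H
  hcore : (pPrimePCore p ↥(normalizer (H : Set G))).map (normalizer (H : Set G)).subtype =
    H ⊔ centralizer (H : Set G)
  hconn : ¬ IsSylowChainConnected p (↥(normalizer (H : Set G)) ⧸ H.subgroupOf (normalizer (H : Set G)))
  hHX : H ≤ X
  hXN : X ≤ normalizer (H : Set G)
  hXn : (X.subgroupOf (normalizer (H : Set G))).Normal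
  hdvd : p ∣ H.relIndex X
  hmin : ∀ Y : Subgroup G, H ≤ Y → Y ≤ normalizer (H : Set G) →
    (Y.subgroupOf (normalizer (H : Set G))).Normal → p ∣ H.relIndex Y → X ≤ Y
  hx : x ∈ (pResidual p ↥X).map X.subtype

theorem normal_subgroupOf_iff {X N : Subgroup G} (hXN : X ≤ N) :
    (X.subgroupOf N).Normal ↔ ∀ n ∈ N, ∀ x ∈ X, n * x * n⁻¹ ∈ X := by
  constructor
  · intro h n hn x hx
    have h1 := h.conj_mem ⟨x, hXN hx⟩ (mem_subgroupOf.mpr hx) ⟨n, hn⟩
    exact mem_subgroupOf.mp h1
  · intro h
    constructor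
    intro x hx n
    exact mem_subgroupOf.mpr (h n n.2 x (mem_subgroupOf.mp hx))

theorem cj_eq_of_mem_normalizer {P : Subgroup G} {y : G} (hy : y ∈ normalizer (P : Set G)) :
    cj y P = P := by
  ext x
  rw [mem_cj]
  have h := mem_normalizer_iff.mp (inv_mem hy) x
  rw [inv_inv] at h
  exact h.symm

/-- The equivalence of normalizers induced by a conjugation. -/
noncomputable def nEquiv (y : G) (H : Subgroup G) :
    ↥(normalizer (H : Set G)) ≃* ↥(normalizer ((cj y H : Subgroup G) : Set G)) :=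
  ((MulAut.conj y).subgroupMap (normalizer (H : Set G))).trans
    (MulEquiv.subgroupCongr (normalizer_cj y H).symm)

@[simp] theorem nEquiv_coe (y : G) (H : Subgroup G) (n : normalizer (H : Set G)) :
    ((nEquiv y H n : normalizer ((cj y H : Subgroup G) : Set G)) : G) = y * n * y⁻¹ := rfl

theorem nEquiv_map_subgroupOf (y : G) (H : Subgroup G) :
    (H.subgroupOf (normalizer (H : Set G))).map (nEquiv y H).toMonoidHom =
      (cj y H).subgroupOf (normalizer ((cj y H : Subgroup G) : Set G)) := by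
  ext z
  constructor
  · rintro ⟨n, hn, rfl⟩
    rw [mem_subgroupOf]
    exact conj_mem_cj (mem_subgroupOf.mp hn)
  · intro hz
    rw [mem_subgroupOf] at hz
    obtain ⟨h, hh, hhz⟩ := hz
    have hn : h ∈ normalizer (H : Set G) := le_normalizer hh
    refine ⟨⟨h, hn⟩, mem_subgroupOf.mpr hh, ?_⟩
    apply Subtype.ext
    exact hhz

/-- Transport of a factor along an element of `N(P)`. -/
theorem EStep.conj {P H X : Subgroup G} {x y : G} (h : EStep p P H X x)
    (hy : y ∈ normalizer (P : Set G)) : EStep p P (cj y H) (cj y X) (y * x * y⁻¹) := by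
  have hP : cj y P = P := cj_eq_of_mem_normalizer hy
  have hinj : Function.Injective (MulAut.conj y).toMonoidHom := (MulAut.conj y).injective
  refine ⟨?_, ?_, ?_, ?_, ?_, ?_, ?_, ?_, ?_, ?_, ?_⟩
  · calc cj y H ≤ cj y P := cj_mono h.hHP
      _ = P := hP
  · rw [normalizer_cj]
    have h1 : P ⊓ cj y (normalizer (H : Set G)) = cj y (P ⊓ normalizer (H : Set G)) := by
      rw [cj_inf, hP]
    rw [h1, Subgroup.relIndex_map_map_of_injective _ _ hinj]
    exact h.hfn
  · rw [centralizer_cj]
    have h1 : P ⊓ cj y (centralizer (H : Set G)) = cj y (P ⊓ centralizer (H : Set G)) := by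
      rw [cj_inf, hP]
    rw [h1]
    exact cj_mono h.hcent
  · rw [← pPrimePCore_map_equiv p (nEquiv y H), Subgroup.map_map, centralizer_cj]
    have h1 : (normalizer ((cj y H : Subgroup G) : Set G)).subtype.comp (nEquiv y H).toMonoidHom =
        (MulAut.conj y).toMonoidHom.comp (normalizer (H : Set G)).subtype := by
      ext n
      rfl
    rw [h1, ← Subgroup.map_map, h.hcore, Subgroup.map_sup]
  · intro hc
    apply h.hconn
    let e₀ := nEquiv y H
    have he : (H.subgroupOf (normalizer (H : Set G))).map e₀.symm.symm.toMonoidHom =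
        (cj y H).subgroupOf (normalizer ((cj y H : Subgroup G) : Set G)) := nEquiv_map_subgroupOf y H
    let e₁ := QuotientGroup.congr _ _ e₀ (nEquiv_map_subgroupOf y H)
    exact sylowChainConnected_of_equiv e₁.symm hc
  · exact cj_mono h.hHX
  · rw [normalizer_cj]
    exact cj_mono h.hXN
  · rw [normal_subgroupOf_iff (by rw [normalizer_cj]; exact cj_mono h.hXN)]
    have h1 := (normal_subgroupOf_iff h.hXN).mp h.hXn
    rw [normalizer_cj]
    rintro _ ⟨n, hn, rfl⟩ _ ⟨z, hz, rfl⟩
    refine ⟨n * z * n⁻¹, h1 n hn z hz, ?_⟩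
    simp only [MulEquiv.coe_toMonoidHom, MulAut.conj_apply]
    group
  · rw [Subgroup.relIndex_map_map_of_injective _ _ hinj]
    exact h.hdvd
  · intro Y hY1 hY2 hY3 hY4
    have hY5 : cj y (cj y⁻¹ Y) = Y := cj_cj_inv y Y
    have hY1' : H ≤ cj y⁻¹ Y := by
      have := cj_mono (g := y⁻¹) hY1
      rwa [cj_inv_cj] at this
    have hY2' : cj y⁻¹ Y ≤ normalizer (H : Set G) := by
      have := cj_mono (g := y⁻¹) hY2
      rwa [normalizer_cj, cj_inv_cj] at this
    have hY3' : ((cj y⁻¹ Y).subgroupOf (normalizer (H : Set G))).Normal := by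
      rw [normal_subgroupOf_iff hY2']
      have h1 := (normal_subgroupOf_iff hY2).mp hY3
      rintro n hn _ ⟨z, hz, rfl⟩
      have hn' : y * n * y⁻¹ ∈ normalizer ((cj y H : Subgroup G) : Set G) := by
        rw [normalizer_cj]
        exact conj_mem_cj hn
      refine ⟨y * n * y⁻¹ * z * (y * n * y⁻¹)⁻¹, h1 _ hn' z hz, ?_⟩
      simp only [MulEquiv.coe_toMonoidHom, MulAut.conj_apply]
      group
    have hY4' : p ∣ H.relIndex (cj y⁻¹ Y) := by
      rw [← hY5, Subgroup.relIndex_map_map_of_injective _ _ hinj] at hY4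
      exact hY4
    have h2 := h.hmin _ hY1' hY2' hY3' hY4'
    have h3 := cj_mono (g := y) h2
    rwa [hY5] at h3
  · rw [← pres_eq_map]
    have h1 := h.hx
    rw [← pres_eq_map] at h1
    have h2 : pres p X ≤ (pres p (cj y X)).comap (MulAut.conj y).toMonoidHom := by
      refine (closure_le _).2 ?_
      rintro g ⟨hg1, hg2⟩
      refine mem_pres_of (conj_mem_cj hg1) ?_
      have h3 : orderOf (y * g * y⁻¹) = orderOf g :=
        Cfsg.Agent.Lib.Transfer.Basic.orderOf_conj_eq _ _
      show (orderOf (y * g * y⁻¹)).Coprime p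
      rw [h3]
      exact hg2
    exact h2 h1

/-- Chains of factors. -/
def Ch (p : ℕ) (P : Subgroup G) : Set G → List (Subgroup G × Subgroup G × G) → Prop
  | _, [] => True
  | A, e :: l => A ⊆ (e.1 : Set G) ∧ EStep p P e.1 e.2.1 e.2.2 ∧ Ch p P (cjs e.2.2 A) l

/-- The product of a chain. -/
def wd (l : List (Subgroup G × Subgroup G × G)) : G := (l.map fun e => e.2.2).prod

/-- Conjugate of a chain. -/
def conjL (y : G) (l : List (Subgroup G × Subgroup G × G)) : List (Subgroup G × Subgroup G × G) :=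
  l.map fun e => (cj y e.1, cj y e.2.1, y * e.2.2 * y⁻¹)

@[simp] theorem wd_nil : wd ([] : List (Subgroup G × Subgroup G × G)) = 1 := rfl

@[simp] theorem wd_cons (e : Subgroup G × Subgroup G × G) (l : List (Subgroup G × Subgroup G × G)) :
    wd (e :: l) = e.2.2 * wd l := by
  simp [wd]

theorem wd_append (l₁ l₂ : List (Subgroup G × Subgroup G × G)) : wd (l₁ ++ l₂) = wd l₁ * wd l₂ := by
  simp [wd]

theorem wd_conjL (y : G) (l : List (Subgroup G × Subgroup G × G)) : wd (conjL y l) = y * wd l * y⁻¹ := by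
  induction l with
  | nil => simp [conjL]
  | cons e l ih =>
    have : conjL y (e :: l) = (cj y e.1, cj y e.2.1, y * e.2.2 * y⁻¹) :: conjL y l := rfl
    rw [this, wd_cons, wd_cons, ih]
    group

theorem cjs_mono (v : G) {A B : Set G} (h : A ⊆ B) : cjs v A ⊆ cjs v B :=
  Set.image_mono h

theorem Ch.mono {P : Subgroup G} {l : List (Subgroup G × Subgroup G × G)} :
    ∀ {A B : Set G}, B ⊆ A → Ch p P A l → Ch p P B l := by
  induction l with
  | nil => intro A B _ _; trivial
  | cons e l ih =>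
    intro A B hBA h
    exact ⟨hBA.trans h.1, h.2.1, ih (cjs_mono _ hBA) h.2.2⟩

theorem Ch.append {P : Subgroup G} {l₁ l₂ : List (Subgroup G × Subgroup G × G)} :
    ∀ {A : Set G}, Ch p P A l₁ → Ch p P (cjs (wd l₁) A) l₂ → Ch p P A (l₁ ++ l₂) := by
  induction l₁ with
  | nil =>
    intro A _ h
    rw [wd_nil, cjs_one] at h
    simpa using h
  | cons e l ih =>
    intro A h1 h2
    refine ⟨h1.1, h1.2.1, ih h1.2.2 ?_⟩
    rw [wd_cons, cjs_mul] at h2
    exact h2

theorem Ch.conj {P : Subgroup G} {y : G} (hy : y ∈ normalizer (P : Set G))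
    {l : List (Subgroup G × Subgroup G × G)} :
    ∀ {A : Set G}, Ch p P A l → Ch p P (cjs y⁻¹ A) (conjL y l) := by
  induction l with
  | nil => intro A _; trivial
  | cons e l ih =>
    intro A h
    refine ⟨?_, EStep.conj h.2.1 hy, ?_⟩
    · rintro _ ⟨a, ha, rfl⟩
      rw [inv_inv]
      exact conj_mem_cj (h.1 ha)
    · have h1 := ih h.2.2
      have h2 : cjs (y * e.2.2 * y⁻¹) (cjs y⁻¹ A) = cjs y⁻¹ (cjs e.2.2 A) := by
        rw [← cjs_mul, ← cjs_mul]
        congr 1
        group
      show Ch p P (cjs (y * e.2.2 * y⁻¹) (cjs y⁻¹ A)) (conjL y l)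
      rw [h2]
      exact h1

/-- A factorization `g = c x₁ ⋯ xₙ y`. -/
def GoodG (p : ℕ) (P : Subgroup G) (A : Set G) (g : G) : Prop :=
  ∃ (l : List (Subgroup G × Subgroup G × G)) (c y : G), c ∈ centralizer A ∧
    y ∈ normalizer (P : Set G) ∧ g = c * wd l * y ∧ Ch p P A l

theorem GoodG.mono {P : Subgroup G} {A B : Set G} {g : G} (hBA : B ⊆ A) (h : GoodG p P A g) :
    GoodG p P B g := by
  obtain ⟨l, c, y, hc, hy, hg, hl⟩ := h
  exact ⟨l, c, y, Subgroup.centralizer_le hBA hc, hy, hg, Ch.mono hBA hl⟩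

theorem good_centralizer {P : Subgroup G} {A : Set G} {c : G} (hc : c ∈ centralizer A) :
    GoodG p P A c :=
  ⟨[], c, 1, hc, one_mem _, by simp, trivial⟩

theorem good_normalizer {P : Subgroup G} {A : Set G} {y : G} (hy : y ∈ normalizer (P : Set G)) :
    GoodG p P A y :=
  ⟨[], 1, y, one_mem _, hy, by simp, trivial⟩

theorem good_one {P : Subgroup G} {A : Set G} : GoodG p P A 1 := good_centralizer (one_mem _)

theorem good_step {P H X : Subgroup G} {A : Set G} {x : G} (h : EStep p P H X x)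
    (hA : A ⊆ (H : Set G)) : GoodG p P A x :=
  ⟨[(H, X, x)], 1, 1, one_mem _, one_mem _, by simp, hA, h, trivial⟩

/-- Composition of factorizations. -/
theorem GoodG.comp {P : Subgroup G} {A : Set G} {g h : G} (h1 : GoodG p P A g)
    (h2 : GoodG p P (cjs g A) h) : GoodG p P A (g * h) := by
  obtain ⟨l, c, y, hc, hy, rfl, hl⟩ := h1
  obtain ⟨l', c', y', hc', hy', rfl, hl'⟩ := h2
  have hcA : ∀ a ∈ A, c * a = a * c := fun a ha => (mem_centralizer_iff.mp hc a ha).symm
  set w := wd l with hw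
  have hset : cjs (c * w * y) A = cjs y (cjs w A) := by
    rw [← cjs_mul]
    ext z
    constructor
    · rintro ⟨a, ha, rfl⟩
      refine ⟨a, ha, ?_⟩
      have h3 : (c * w * y)⁻¹ * a * (c * w * y) = (w * y)⁻¹ * (c⁻¹ * a * c) * (w * y) := by group
      have h4 : c⁻¹ * a * c = a := by
        rw [mul_assoc, ← hcA a ha]
        group
      show (w * y)⁻¹ * a * (w * y) = (c * w * y)⁻¹ * a * (c * w * y)
      rw [h3, h4]
    · rintro ⟨a, ha, rfl⟩
      refine ⟨a, ha, ?_⟩
      have h3 : (c * w * y)⁻¹ * a * (c * w * y) = (w * y)⁻¹ * (c⁻¹ * a * c) * (w * y) := by group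
      have h4 : c⁻¹ * a * c = a := by
        rw [mul_assoc, ← hcA a ha]
        group
      show (c * w * y)⁻¹ * a * (c * w * y) = (w * y)⁻¹ * a * (w * y)
      rw [h3, h4]
  rw [hset] at hc' hl'
  refine ⟨l ++ conjL y l', c * ((w * y) * c' * (w * y)⁻¹), y * y', mul_mem hc ?_, mul_mem hy hy', ?_, ?_⟩
  · rw [mem_centralizer_iff]
    intro a ha
    have h3 := (mem_centralizer_iff.mp hc') ((w * y)⁻¹ * a * (w * y)) (by
      rw [← cjs_mul]
      exact ⟨a, ha, rfl⟩)
    calc a * ((w * y) * c' * (w * y)⁻¹)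
        = (w * y) * (((w * y)⁻¹ * a * (w * y)) * c') * (w * y)⁻¹ := by group
      _ = (w * y) * (c' * ((w * y)⁻¹ * a * (w * y))) * (w * y)⁻¹ := by rw [h3]
      _ = ((w * y) * c' * (w * y)⁻¹) * a := by group
  · rw [wd_append, wd_conjL, ← hw]
    group
  · refine Ch.append hl ?_
    have h3 := Ch.conj hy hl'
    rw [← hw]
    have h4 : cjs y⁻¹ (cjs y (cjs w A)) = cjs w A := by
      rw [← cjs_mul]
      simp [cjs_one]
    rw [h4] at h3
    exact h3

/-- The indexed form of a chain. -/
theorem Ch.index {P : Subgroup G} : ∀ (l : List (Subgroup G × Subgroup G × G)) (A : Set G),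
    Ch p P A l → ∀ (i : ℕ) (hi : i < l.length),
      EStep p P (l.get ⟨i, hi⟩).1 (l.get ⟨i, hi⟩).2.1 (l.get ⟨i, hi⟩).2.2 ∧
      cjs (((l.map fun e => e.2.2).take i).prod) A ⊆ ((l.get ⟨i, hi⟩).1 : Set G) := by
  intro l
  induction l with
  | nil =>
    intro A _ i hi
    exact absurd hi (by simp)
  | cons e l ih =>
    intro A h i hi
    obtain ⟨h1, h2, h3⟩ := h
    cases i with
    | zero =>
      refine ⟨h2, ?_⟩
      simpa [cjs_one] using h1
    | succ j =>
      have hj : j < l.length := by simpa using hi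
      obtain ⟨h4, h5⟩ := ih _ h3 j hj
      refine ⟨h4, ?_⟩
      have h6 : ((e :: l).map fun e => e.2.2).take (j + 1) = e.2.2 :: (l.map fun e => e.2.2).take j := by simp
      rw [h6, List.prod_cons, cjs_mul]
      exact h5

end Cfsg.Agent.Lib.PGroup.AlpGold
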