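import Mathlib
import Cfsg.Agent.Lib.PGroup.AlpGold.Chain

/-!
# The strong form of the Alperin-Goldschmidt fusion theorem
-/

set_option autoImplicit false
set_option linter.unusedSectionVars false
set_option linter.unusedVariables false
set_option linter.style.haveILetI false

namespace Cfsg.Agent.Lib.PGroup.AlpGold

open Subgroup Cfsg Cfsg.Agent.Lib.Fusion.GroupSylow Cfsg.Agent.Lib.Basic.PCore
open Cfsg.Agent.Lib.Transfer.GrunResidual (pres pres_eq_map pres_le mem_pres_of)
open Cfsg.Agent.Lib.PGroup.AlperinChain (cjs cjs_one cjs_mul Good Step wrd wrd_nil wrd_cons fusion_list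
  lt_inf_normalizer card_lt_of_lt)

variable {G : Type*} [Group G] [Finite G] {p : ℕ} [hp : Fact p.Prime]

/-- Fully normalized subgroups: `N_P(D)` is Sylow in `N(D)`. -/
def FN (p : ℕ) (P D : Subgroup G) : Prop :=
  ¬ p ∣ (P ⊓ normalizer (D : Set G)).relIndex (normalizer (D : Set G))

theorem good_of_alperin (P : Sylow p G) (Φ : Set G → Prop)
    (hΦ : ∀ (A : Set G) (x : G), Φ A → Φ (cjs x A))
    (hstep : ∀ (A : Set G) (D : Subgroup G) (x : G), Φ A → A ⊆ (D : Set G) → D ≤ (P : Subgroup G) →
      FN p (P : Subgroup G) D → x ∈ normalizer (D : Set G) → GoodG p (P : Subgroup G) A x) :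
    ∀ (l : List (Sylow p G × G)) (A : Set G), Good P A l → Φ A →
      GoodG p (P : Subgroup G) A (wrd l) := by
  intro l
  induction l with
  | nil =>
    intro A _ _
    rw [wrd_nil]
    exact good_one
  | cons e l ih =>
    intro A h hA
    obtain ⟨h1, h2, h3⟩ := h
    rw [wrd_cons]
    exact (hstep A _ e.2 hA h1 inf_le_left h2.hP h2.hx).comp (ih _ h3 (hΦ A e.2 hA))

theorem cjs_subgroup_subset {D : Subgroup G} {x : G} (hx : x ∈ normalizer (D : Set G)) {A : Set G}
    (hA : A ⊆ (D : Set G)) : cjs x A ⊆ (D : Set G) := by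
  rintro _ ⟨a, ha, rfl⟩
  have h1 := (mem_normalizer_iff.mp (inv_mem hx) a).mp (hA ha)
  simpa using h1

theorem centralizer_le_normalizer' (D : Subgroup G) :
    centralizer (D : Set G) ≤ normalizer (D : Set G) := by
  intro c hc
  rw [mem_normalizer_iff]
  intro d
  constructor
  · intro hd
    have h1 : d * c = c * d := mem_centralizer_iff.mp hc d hd
    have : c * d * c⁻¹ = d := by rw [← h1]; group
    rw [this]
    exact hd
  · intro hd
    have h1 : (c * d * c⁻¹) * c = c * (c * d * c⁻¹) := mem_centralizer_iff.mp hc _ hd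
    have : d = c⁻¹ * (c * d * c⁻¹) * c := by group
    have h2 : c⁻¹ * (c * d * c⁻¹) * c = c * d * c⁻¹ := by
      rw [mul_assoc, h1]
      group
    rw [this, h2]
    exact hd

/-- The inductive step. -/
theorem step_core (P : Sylow p G) {D : Subgroup G} (hDlt : D < (P : Subgroup G))
    (hFN : FN p (P : Subgroup G) D)
    (IH : ∀ D' : Subgroup G, D' ≤ (P : Subgroup G) → FN p (P : Subgroup G) D' → Nat.card D < Nat.card D' →
      ∀ x' ∈ normalizer (D' : Set G), ∀ A' : Set G, A' ⊆ (D' : Set G) → GoodG p (P : Subgroup G) A' x') :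
    ∀ x ∈ normalizer (D : Set G), ∀ A : Set G, A ⊆ (D : Set G) → GoodG p (P : Subgroup G) A x := by
  have large : ∀ (U : Subgroup G) (g : G), U ≤ (P : Subgroup G) → Nat.card D < Nat.card U →
      cjs g (U : Set G) ⊆ ((P : Subgroup G) : Set G) → GoodG p (P : Subgroup G) (U : Set G) g := by
    intro U g hU hc hg
    obtain ⟨l, hl, hw⟩ := fusion_list P (U : Set G) g hU hg
    rw [← hw]
    refine good_of_alperin P (fun A => ∃ V : Subgroup G, (V : Set G) = A ∧ Nat.card D < Nat.card V) ?_ ?_
      l _ hl ⟨U, rfl, hc⟩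
    · rintro A x ⟨V, rfl, hV⟩
      refine ⟨V.map (MulAut.conj x⁻¹).toMonoidHom, ?_, ?_⟩
      · ext z
        constructor
        · rintro ⟨v, hv, rfl⟩
          refine ⟨v, hv, ?_⟩
          simp
        · rintro ⟨v, hv, rfl⟩
          refine ⟨v, hv, ?_⟩
          simp
      · rw [Subgroup.card_map_of_injective (MulAut.conj x⁻¹).injective]
        exact hV
    · rintro A D' y ⟨V, rfl, hV⟩ hA hD' hF hy
      have h1 : Nat.card V ≤ Nat.card D' := Subgroup.card_le_of_le hA
      exact IH D' hD' hF (by omega) y hy _ hA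
  set N : Subgroup G := normalizer (D : Set G) with hN
  have hDN : D ≤ N := le_normalizer
  have hRN : (P : Subgroup G) ⊓ N ≤ N := inf_le_right
  have hRp : IsPGroup p ↥(((P : Subgroup G) ⊓ N).subgroupOf N) :=
    (P.isPGroup'.to_le inf_le_left).of_equiv (Subgroup.subgroupOfEquivOfLe hRN).symm
  let S' : Sylow p N := hRp.toSylow hFN
  have hS' : (S' : Subgroup N) = ((P : Subgroup G) ⊓ N).subgroupOf N := rfl
  have hlt : D < (P : Subgroup G) ⊓ N := lt_inf_normalizer (p := p) P.isPGroup' hDlt
  -- the subgroup of good elements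
  let K : Subgroup N :=
    { carrier := {x | ∀ A : Set G, A ⊆ (D : Set G) → GoodG p (P : Subgroup G) A (x : G)}
      one_mem' := fun A _ => good_one
      mul_mem' := by
        intro x y hx hy A hA
        exact (hx A hA).comp (hy _ (cjs_subgroup_subset x.2 hA))
      inv_mem' := by
        intro x hx
        have hpow : ∀ k : ℕ, ∀ A : Set G, A ⊆ (D : Set G) → GoodG p (P : Subgroup G) A ((x ^ k : N) : G) := by
          intro k
          induction k with
          | zero => intro A _; simpa using good_one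
          | succ k ih =>
            intro A hA
            rw [pow_succ]
            exact (ih A hA).comp (hx _ (cjs_subgroup_subset (x ^ k).2 hA))
        have h1 : x⁻¹ = x ^ (orderOf x - 1) := by
          apply inv_eq_of_mul_eq_one_right
          rw [← pow_succ', Nat.sub_add_cancel (orderOf_pos x), pow_orderOf_eq_one]
        show ∀ A : Set G, A ⊆ (D : Set G) → GoodG p (P : Subgroup G) A ((x⁻¹ : N) : G)
        rw [h1]
        exact hpow _ }
  have hK : ∀ x : N, x ∈ K ↔ ∀ A : Set G, A ⊆ (D : Set G) → GoodG p (P : Subgroup G) A (x : G) :=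
    fun x => Iff.rfl
  have hcore : CoreHyp (D.subgroupOf N) S' K := by
    refine ⟨?_, ?_, ?_, ?_⟩
    · obtain ⟨r, hr, hrD⟩ := SetLike.exists_of_lt hlt
      refine SetLike.lt_iff_le_and_exists.mpr ⟨?_, ⟨r, (mem_inf.mp hr).2⟩, ?_, ?_⟩
      · intro d hd
        rw [hS', mem_subgroupOf]
        exact hlt.le (mem_subgroupOf.mp hd)
      · rw [hS', mem_subgroupOf]
        exact hr
      · rw [mem_subgroupOf]
        exact hrD
    · intro c hc
      rw [hK]
      intro A hA
      apply good_centralizer
      rw [mem_centralizer_iff]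
      intro a ha
      have h1 := mem_centralizer_iff.mp hc ⟨a, hDN (hA ha)⟩ (mem_subgroupOf.mpr (hA ha))
      exact congrArg Subtype.val h1
    · intro s hs
      rw [hK]
      intro A hA
      apply good_normalizer
      rw [hS', mem_subgroupOf] at hs
      exact le_normalizer (mem_inf.mp hs).1
    · intro h hlth
      rw [hK]
      intro A hA
      set U : Subgroup G := (((S' : Subgroup N) ⊓ cj h (S' : Subgroup N))).map N.subtype with hU
      have hDU : D < U := by
        obtain ⟨t, ht, htD⟩ := SetLike.exists_of_lt hlth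
        refine SetLike.lt_iff_le_and_exists.mpr ⟨?_, (t : G), Subgroup.mem_map_of_mem _ ht, ?_⟩
        · intro d hd
          exact ⟨⟨d, hDN hd⟩, hlth.le (mem_subgroupOf.mpr hd), rfl⟩
        · intro htD'
          exact htD (mem_subgroupOf.mpr htD')
      have hUP : U ≤ (P : Subgroup G) := by
        rintro _ ⟨u, hu, rfl⟩
        have h1 := (mem_inf.mp hu).1
        rw [hS', mem_subgroupOf] at h1
        exact (mem_inf.mp h1).1
      have hcj : cjs (h : G) (U : Set G) ⊆ ((P : Subgroup G) : Set G) := by
        rintro _ ⟨_, ⟨u, hu, rfl⟩, rfl⟩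
        have h1 := mem_cj.mp (mem_inf.mp hu).2
        rw [hS', mem_subgroupOf] at h1
        exact (mem_inf.mp h1).1
      exact (large U h hUP (card_lt_of_lt hDU) hcj).mono (hA.trans hDU.le)
  intro x hx A hA
  rcases hcore.dichotomy with htop | ⟨h1, h2, h3, X', h4, h5, h6, h7, h8⟩
  · have : (⟨x, hx⟩ : N) ∈ K := by rw [htop]; trivial
    exact this A hA
  set X : Subgroup G := X'.map N.subtype with hX
  have hmapD : (D.subgroupOf N).map N.subtype = D := Subgroup.map_subgroupOf_eq_of_le hDN
  have hXN : X ≤ N := Subgroup.map_subtype_le _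
  have hXsub : X.subgroupOf N = X' := Subgroup.comap_map_eq_self_of_injective N.subtype_injective X'
  have hrel : ∀ Y : Subgroup N, D.relIndex (Y.map N.subtype) = (D.subgroupOf N).relIndex Y := by
    intro Y
    conv_lhs => rw [← hmapD]
    exact Subgroup.relIndex_map_map_of_injective _ _ N.subtype_injective
  obtain ⟨v, hv, k, hk, hxvk⟩ := h8 ⟨x, hx⟩
  have hstep : EStep p (P : Subgroup G) D X (v : G) := by
    refine ⟨hDlt.le, hFN, ?_, ?_, h3, ?_, hXN, ?_, ?_, ?_, ?_⟩
    · intro c hc
      obtain ⟨hc1, hc2⟩ := mem_inf.mp hc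
      have hcN : c ∈ N := centralizer_le_normalizer' D hc2
      have h9 : (⟨c, hcN⟩ : N) ∈ (S' : Subgroup N) ⊓ centralizer ((D.subgroupOf N : Subgroup N) : Set N) := by
        refine mem_inf.mpr ⟨?_, ?_⟩
        · rw [hS', mem_subgroupOf]
          exact mem_inf.mpr ⟨hc1, hcN⟩
        · refine mem_centralizer_iff.mpr ?_
          intro d hd
          apply Subtype.ext
          exact mem_centralizer_iff.mp hc2 _ (mem_subgroupOf.mp hd)
      exact mem_subgroupOf.mp (h1 h9)
    · rw [h2, Subgroup.map_sup, hmapD]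
      congr 1
      ext c
      constructor
      · rintro ⟨z, hz, rfl⟩
        rw [mem_centralizer_iff]
        intro d hd
        have h9 := mem_centralizer_iff.mp hz ⟨d, hDN hd⟩ (mem_subgroupOf.mpr hd)
        exact congrArg Subtype.val h9
      · intro hc
        have hcN : c ∈ N := centralizer_le_normalizer' D hc
        refine ⟨⟨c, hcN⟩, ?_, rfl⟩
        refine mem_centralizer_iff.mpr ?_
        intro d hd
        apply Subtype.ext
        exact mem_centralizer_iff.mp hc _ (mem_subgroupOf.mp hd)
    · intro d hd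
      exact ⟨⟨d, hDN hd⟩, h4 (mem_subgroupOf.mpr hd), rfl⟩
    · rw [hXsub]
      exact h5
    · rw [hX, hrel]
      exact h6
    · intro Y hY1 hY2 hY3 hY4
      have h9 : (Y.subgroupOf N).map N.subtype = Y := Subgroup.map_subgroupOf_eq_of_le hY2
      have h10 : X' ≤ Y.subgroupOf N := by
        apply h7 _ _ hY3
        · rw [← hrel, h9]
          exact hY4
        · intro d hd
          exact mem_subgroupOf.mpr (hY1 (mem_subgroupOf.mp hd))
      rintro _ ⟨z, hz, rfl⟩
      exact mem_subgroupOf.mp (h10 hz)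
    · rw [← pres_eq_map]
      have h9 : pres p X' ≤ (pres p X).comap N.subtype := by
        refine (closure_le _).2 ?_
        rintro z ⟨hz1, hz2⟩
        refine mem_pres_of (mem_map_of_mem _ hz1) ?_
        show (orderOf (z : G)).Coprime p
        rw [Subgroup.orderOf_coe]
        exact hz2
      exact h9 hv
  have hxe : x = (v : G) * (k : G) := congrArg Subtype.val hxvk
  rw [hxe]
  exact (good_step hstep hA).comp (hk _ (cjs_subgroup_subset v.2 hA))

/-- All normalizers of fully normalized subgroups. -/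
theorem fn_good (P : Sylow p G) : ∀ (n : ℕ) (D : Subgroup G),
    Nat.card (P : Subgroup G) - Nat.card D = n → D ≤ (P : Subgroup G) → FN p (P : Subgroup G) D →
    ∀ x ∈ normalizer (D : Set G), ∀ A : Set G, A ⊆ (D : Set G) → GoodG p (P : Subgroup G) A x := by
  intro n
  induction n using Nat.strong_induction_on with
  | _ n IHn =>
    intro D hn hDP hFN x hx A hA
    by_cases hDeq : D = (P : Subgroup G)
    · rw [hDeq] at hx
      exact good_normalizer hx
    have hDlt : D < (P : Subgroup G) := lt_of_le_of_ne hDP hDeq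
    have hc : Nat.card D < Nat.card (P : Subgroup G) := card_lt_of_lt hDlt
    refine step_core P hDlt hFN ?_ x hx A hA
    intro D' h1 h2 h3 x' hx' A' hA'
    have h4 : Nat.card D' ≤ Nat.card (P : Subgroup G) := Subgroup.card_le_of_le h1
    exact IHn _ (by omega) D' rfl h1 h2 x' hx' A' hA'

/-- The strong form of the Alperin-Goldschmidt fusion theorem. -/
theorem good_of_fusion (P : Sylow p G) (A : Set G) (hA : A ⊆ ((P : Subgroup G) : Set G)) (g : G)
    (hAg : cjs g A ⊆ ((P : Subgroup G) : Set G)) : GoodG p (P : Subgroup G) A g := by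
  obtain ⟨l, hl, hw⟩ := fusion_list P A g hA hAg
  rw [← hw]
  refine good_of_alperin P (fun _ => True) (fun _ _ _ => trivial) ?_ l A hl trivial
  intro A' D x _ hA' hD hF hx
  exact fn_good P _ D rfl hD hF x hx A' hA'

end Cfsg.Agent.Lib.PGroup.AlpGold
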